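/-
Groups with `X'` a `p`-group and no class size divisible by `p²`: `#X' ≤ p`.
-/
import Mathlib
import Cfsg.Agent.Lib.SqfClass.Knoche

set_option autoImplicit false
set_option linter.unusedSectionVars false
set_option linter.style.longLine false
set_option linter.style.haveILetI false

namespace Cfsg.Agent.Lib.SqfClass.LemmaK

open Subgroup Cfsg
open Cfsg.Agent.Lib.SqfClass.Basic
open Cfsg.Agent.Lib.SqfClass.Knoche

variable {X : Type*} [Group X]

/-- Splitting an element into its `p`-part and `p'`-part, exponents version. -/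
theorem exists_parts [Finite X] {p : ℕ} (hp : p.Prime) (x : X) :
    ∃ k e : ℕ, k.Coprime p ∧ (x ^ k) ^ p ^ e = 1 ∧ (x ^ p ^ e) ^ k = 1 := by
  have hne : orderOf x ≠ 0 := (orderOf_pos x).ne'
  obtain ⟨e, k, hk, he⟩ := Nat.exists_eq_pow_mul_and_not_dvd hne p hp.ne_one
  refine ⟨k, e, (Nat.Coprime.symm ((Nat.Prime.coprime_iff_not_dvd hp).2 hk)), ?_, ?_⟩
  · rw [← pow_mul, mul_comm, ← he, pow_orderOf_eq_one]
  · rw [← pow_mul, ← he, pow_orderOf_eq_one]

theorem eq_of_le_of_index_eq {A : Type*} [Group A] [Finite A] {H K : Subgroup A} (hle : H ≤ K)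
    (h : H.index = K.index) : H = K := by
  have h1 := relIndex_mul_index hle
  rw [h] at h1
  have hK : 0 < K.index := Nat.pos_of_ne_zero Subgroup.index_ne_zero_of_finite
  have h2 : H.relIndex K = 1 := Nat.eq_of_mul_eq_mul_right hK (by rw [h1, one_mul])
  exact le_antisymm hle (relIndex_eq_one.1 h2)

section Z

variable [Finite X] {p : ℕ}

/-- In a group where `C = [A, B]` commutes with everything: `[A^n, B] = C^n`. -/
theorem comm_pow {Y : Type*} [Group Y] (A B : Y) (hC : ∀ t : Y, (A * B * A⁻¹ * B⁻¹) * t = t * (A * B * A⁻¹ * B⁻¹)) (n : ℕ) :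
    A ^ n * B * (A ^ n)⁻¹ * B⁻¹ = (A * B * A⁻¹ * B⁻¹) ^ n := by
  induction n with
  | zero => simp
  | succ n ih =>
    have h1 : Commute (A * B * A⁻¹ * B⁻¹) A := hC A
    have h2 : Commute (A * B * A⁻¹ * B⁻¹) B := hC B
    calc A ^ (n + 1) * B * (A ^ (n + 1))⁻¹ * B⁻¹
        = A * (A ^ n * B * (A ^ n)⁻¹ * B⁻¹) * (B * A⁻¹ * B⁻¹) := by
          rw [pow_succ' A n]; group
      _ = A * (A * B * A⁻¹ * B⁻¹) ^ n * (B * A⁻¹ * B⁻¹) := by rw [ih]
      _ = (A * B * A⁻¹ * B⁻¹) ^ n * (A * B * A⁻¹ * B⁻¹) := by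
          have h3 : A * (A * B * A⁻¹ * B⁻¹) ^ n = (A * B * A⁻¹ * B⁻¹) ^ n * A :=
            ((h1.pow_left n).eq).symm
          rw [h3]
          group
      _ = _ := (pow_succ _ n).symm

/-- If `[X, S] ≤ L`, `X' ≤ S` and `S` contains all `p`-elements, then `X' ≤ L`. -/
theorem commutator_le_of_line (hp : p.Prime) (S L : Subgroup X) [L.Normal] (hS : IsPGroup p S)
    (hcomm : commutator X ≤ S) (hpelt : ∀ (z : X) (e : ℕ), z ^ p ^ e = 1 → z ∈ S)
    (hL : ∀ x : X, ∀ u ∈ S, x * u * x⁻¹ * u⁻¹ ∈ L) : commutator X ≤ L := by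
  rw [commutator_def, Subgroup.commutator_le]
  intro a _ b _
  set c := a * b * a⁻¹ * b⁻¹ with hc
  have hcS : c ∈ S := hcomm (Subgroup.commutator_mem_commutator (mem_top a) (mem_top b))
  show c ∈ L
  -- work in the quotient
  let π := QuotientGroup.mk' L
  have hker : ∀ z : X, π z = 1 ↔ z ∈ L := fun z => by
    rw [← MonoidHom.mem_ker, QuotientGroup.ker_mk']
  have hcenS : ∀ t : X, ∀ u ∈ S, π u * π t = π t * π u := by
    intro t u hu
    have h1 := (hker _).2 (hL t u hu)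
    simp only [map_mul, map_inv] at h1
    have h2 : π t * π u = (π t * π u * (π t)⁻¹ * (π u)⁻¹) * (π u * π t) := by group
    rw [h2, h1, one_mul]
  have hsurj : Function.Surjective π := QuotientGroup.mk'_surjective L
  have hcC : ∀ t : X ⧸ L, (π a * π b * (π a)⁻¹ * (π b)⁻¹) * t = t * (π a * π b * (π a)⁻¹ * (π b)⁻¹) := by
    intro t
    obtain ⟨t', rfl⟩ := hsurj t
    have h1 := hcenS t' c hcS
    simpa [hc, map_mul, map_inv] using h1
  obtain ⟨k, e, hk, h1, -⟩ := exists_parts hp a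
  have hakS : a ^ k ∈ S := hpelt _ e h1
  have h2 := hcenS b (a ^ k) hakS
  have h3 := comm_pow (π a) (π b) hcC k
  have h4 : π a ^ k * π b * (π a ^ k)⁻¹ * (π b)⁻¹ = 1 := by
    have h5 : π (a ^ k) = π a ^ k := map_pow _ _ _
    rw [h5] at h2
    rw [h2]
    group
  rw [h4] at h3
  have hcpi : π a * π b * (π a)⁻¹ * (π b)⁻¹ = π c := by simp [hc, map_mul, map_inv]
  rw [hcpi] at h3
  obtain ⟨f, hf⟩ := hS ⟨c, hcS⟩
  have hf' : c ^ p ^ f = 1 := congrArg Subtype.val hf
  have hf2 : (π c) ^ p ^ f = 1 := by rw [← map_pow, hf', map_one]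
  obtain ⟨s, hs⟩ := exists_zpow_pow_eq (π c) hf2 (n := k) (Nat.Coprime.pow_right f hk)
  rw [← h3, one_zpow] at hs
  exact (hker c).1 hs.symm

end Z

section Abelian

variable [Finite X] {p : ℕ} [Fact p.Prime]

/-- The common setting: `S` normal `p`-subgroup with `X' ≤ S` containing all `p`-elements, and
every element of `X` has at most `p` conjugates under `S`. -/
structure Setting (S : Subgroup X) : Prop where
  normal : S.Normal
  pgroup : IsPGroup p S
  comm : commutator X ≤ S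
  pelt : ∀ (z : X) (e : ℕ), z ^ p ^ e = 1 → z ∈ S
  rel : ∀ x : X, (centralizer ({x} : Set X)).relIndex S = 1 ∨ (centralizer ({x} : Set X)).relIndex S = p

variable {S : Subgroup X}

theorem Setting.comm_conj (hS : Setting (p := p) S) (hab : ∀ x ∈ S, ∀ y ∈ S, x * y = y * x) (x y : X) {u : X} (hu : u ∈ S) :
    y * (x * u * x⁻¹ * u⁻¹) * y⁻¹ = x * (y * u * y⁻¹) * x⁻¹ * (y * u * y⁻¹)⁻¹ := by
  haveI := hS.normal
  have hc : y * x * y⁻¹ * x⁻¹ ∈ S := hS.comm (Subgroup.commutator_mem_commutator (mem_top y) (mem_top x))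
  have hu' : y * u * y⁻¹ ∈ S := hS.normal.conj_mem u hu y
  have hu'' : x * (y * u * y⁻¹) * x⁻¹ ∈ S := hS.normal.conj_mem _ hu' x
  have h1 := hab _ hc _ hu''
  set c := y * x * y⁻¹ * x⁻¹ with hcdef
  set u' := y * u * y⁻¹ with hu'def
  have h2 : y * x * y⁻¹ = c * x := by rw [hcdef]; group
  calc y * (x * u * x⁻¹ * u⁻¹) * y⁻¹ = (y * x * y⁻¹) * u' * (y * x * y⁻¹)⁻¹ * u'⁻¹ := by
        rw [hu'def]; group
    _ = c * (x * u' * x⁻¹) * c⁻¹ * u'⁻¹ := by rw [h2]; group
    _ = (x * u' * x⁻¹) * c * c⁻¹ * u'⁻¹ := by rw [h1]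
    _ = _ := by group

theorem Setting.card_lineOf (hS : Setting (p := p) S) (hab : ∀ x ∈ S, ∀ y ∈ S, x * y = y * x) (x : X) :
    Nat.card (lineOf hS.normal hab x) = 1 ∨ Nat.card (lineOf hS.normal hab x) = p := by
  rw [Basic.card_lineOf, ← Subgroup.index_ker, ker_phi]
  exact hS.rel x

theorem Setting.card_lineOf_of_ne (hS : Setting (p := p) S) (hab : ∀ x ∈ S, ∀ y ∈ S, x * y = y * x) (x : X) {u : X}
    (hu : u ∈ S) (hxu : x * u * x⁻¹ * u⁻¹ ≠ 1) : Nat.card (lineOf hS.normal hab x) = p := by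
  refine (hS.card_lineOf hab x).resolve_left ?_
  intro h1
  have h2 : lineOf hS.normal hab x = ⊥ := Subgroup.card_eq_one.mp h1
  have h3 : x * u * x⁻¹ * u⁻¹ ∈ lineOf hS.normal hab x := (mem_lineOf _ _ _ _).2 ⟨u, hu, rfl⟩
  rw [h2, Subgroup.mem_bot] at h3
  exact hxu h3

/-- The line of `x` is stable under `X`. -/
theorem Setting.conj_mem_lineOf (hS : Setting (p := p) S) (hab : ∀ x ∈ S, ∀ y ∈ S, x * y = y * x) (x y : X) {a : X}
    (ha : a ∈ lineOf hS.normal hab x) : y * a * y⁻¹ ∈ lineOf hS.normal hab x := by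
  obtain ⟨u, hu, rfl⟩ := (mem_lineOf _ _ _ _).1 ha
  rw [hS.comm_conj hab x y hu]
  exact (mem_lineOf _ _ _ _).2 ⟨_, hS.normal.conj_mem u hu y, rfl⟩

/-- An element acting nontrivially on `S` acts nontrivially on its line. -/
theorem Setting.exists_ne_on_line (hS : Setting (p := p) S) (hab : ∀ x ∈ S, ∀ y ∈ S, x * y = y * x) (x : X) {u : X}
    (hu : u ∈ S) (hxu : x * u * x⁻¹ * u⁻¹ ≠ 1) :
    x * (x * u * x⁻¹ * u⁻¹) * x⁻¹ * (x * u * x⁻¹ * u⁻¹)⁻¹ ≠ 1 := by
  intro h0
  have hp : p.Prime := Fact.out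
  set l := x * u * x⁻¹ * u⁻¹ with hl
  have hlS : l ∈ S := S.mul_mem (hS.normal.conj_mem u hu x) (S.inv_mem hu)
  have hfix : x * l * x⁻¹ = l := by
    calc x * l * x⁻¹ = (x * l * x⁻¹ * l⁻¹) * l := by group
      _ = l := by rw [h0, one_mul]
  have hpow : ∀ n : ℕ, x ^ n * u * (x ^ n)⁻¹ = l ^ n * u := by
    intro n
    induction n with
    | zero => simp
    | succ n ih =>
      have hcomm : Commute x l := by
        show x * l = l * x
        calc x * l = (x * l * x⁻¹) * x := by group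
          _ = l * x := by rw [hfix]
      calc x ^ (n + 1) * u * (x ^ (n + 1))⁻¹ = x * (x ^ n * u * (x ^ n)⁻¹) * x⁻¹ := by
            rw [pow_succ' x n]; group
        _ = x * (l ^ n * u) * x⁻¹ := by rw [ih]
        _ = l ^ n * (x * u * x⁻¹) := by
            have h1 : x * l ^ n = l ^ n * x := (hcomm.pow_right n).eq
            calc x * (l ^ n * u) * x⁻¹ = (x * l ^ n) * u * x⁻¹ := by group
              _ = _ := by rw [h1]; group
        _ = l ^ n * (l * u) := by rw [hl]; group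
        _ = _ := by rw [pow_succ]; group
  obtain ⟨k, e, hk, h1, -⟩ := exists_parts hp x
  have hxkS : x ^ k ∈ S := hS.pelt _ e h1
  have h2 := hpow k
  have h3 : x ^ k * u * (x ^ k)⁻¹ = u := by
    rw [hab _ hxkS _ hu]; group
  rw [h3] at h2
  have h4 : l ^ k = 1 := by
    have : l ^ k * u = 1 * u := by rw [one_mul]; exact h2.symm
    exact mul_right_cancel this
  have hcardL := hS.card_lineOf_of_ne hab x hu hxu
  have hlL : l ∈ lineOf hS.normal hab x := (mem_lineOf _ _ _ _).2 ⟨u, hu, rfl⟩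
  have h5 : l ^ p = 1 := by
    have h6 := pow_card_eq_one' (x := (⟨l, hlL⟩ : lineOf hS.normal hab x))
    rw [hcardL] at h6
    exact congrArg Subtype.val h6
  obtain ⟨s, hs⟩ := exists_zpow_pow_eq l h5 (n := k) hk
  rw [h4, one_zpow] at hs
  exact hxu hs.symm

/-- All nontrivial lines coincide. -/
theorem Setting.lines_eq (hS : Setting (p := p) S) (hab : ∀ x ∈ S, ∀ y ∈ S, x * y = y * x) (x y : X) {u v : X}
    (hu : u ∈ S) (hv : v ∈ S) (hxu : x * u * x⁻¹ * u⁻¹ ≠ 1) (hyv : y * v * y⁻¹ * v⁻¹ ≠ 1) :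
    lineOf hS.normal hab x = lineOf hS.normal hab y := by
  have hp : p.Prime := Fact.out
  by_contra hne
  have hLx := hS.card_lineOf_of_ne hab x hu hxu
  have hLy := hS.card_lineOf_of_ne hab y hv hyv
  -- generators of the lines on which the elements act nontrivially
  set l := x * u * x⁻¹ * u⁻¹ with hl
  set m := y * v * y⁻¹ * v⁻¹ with hm
  have hlS : l ∈ S := S.mul_mem (hS.normal.conj_mem u hu x) (S.inv_mem hu)
  have hmS : m ∈ S := S.mul_mem (hS.normal.conj_mem v hv y) (S.inv_mem hv)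
  have hl1 : x * l * x⁻¹ * l⁻¹ ≠ 1 := hS.exists_ne_on_line hab x hu hxu
  have hm1 : y * m * y⁻¹ * m⁻¹ ≠ 1 := hS.exists_ne_on_line hab y hv hyv
  have hlx : l ∈ lineOf hS.normal hab x := (mem_lineOf _ _ _ _).2 ⟨u, hu, rfl⟩
  have hmy : m ∈ lineOf hS.normal hab y := (mem_lineOf _ _ _ _).2 ⟨v, hv, rfl⟩
  -- `y` fixes `l`: otherwise its commutator lies in both lines
  have hyl : y * l * y⁻¹ * l⁻¹ = 1 := by
    by_contra hc
    have h1 : y * l * y⁻¹ * l⁻¹ ∈ lineOf hS.normal hab y := (mem_lineOf _ _ _ _).2 ⟨l, hlS, rfl⟩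
    have h2 : y * l * y⁻¹ * l⁻¹ ∈ lineOf hS.normal hab x :=
      (lineOf hS.normal hab x).mul_mem (hS.conj_mem_lineOf hab x y hlx) ((lineOf hS.normal hab x).inv_mem hlx)
    exact hne (eq_of_card_prime_of_common hp hLx hLy h2 h1 hc)
  have hxm : x * m * x⁻¹ * m⁻¹ = 1 := by
    by_contra hc
    have h1 : x * m * x⁻¹ * m⁻¹ ∈ lineOf hS.normal hab x := (mem_lineOf _ _ _ _).2 ⟨m, hmS, rfl⟩
    have h2 : x * m * x⁻¹ * m⁻¹ ∈ lineOf hS.normal hab y :=
      (lineOf hS.normal hab y).mul_mem (hS.conj_mem_lineOf hab y x hmy) ((lineOf hS.normal hab y).inv_mem hmy)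
    exact hne (eq_of_card_prime_of_common hp hLx hLy h1 h2 hc)
  have hyl' : y * l * y⁻¹ = l := by
    calc y * l * y⁻¹ = (y * l * y⁻¹ * l⁻¹) * l := by group
      _ = l := by rw [hyl, one_mul]
  have hxm' : x * m * x⁻¹ = m := by
    calc x * m * x⁻¹ = (x * m * x⁻¹ * m⁻¹) * m := by group
      _ = m := by rw [hxm, one_mul]
  -- values of the product
  have v1 : (x * y) * l * (x * y)⁻¹ * l⁻¹ = x * l * x⁻¹ * l⁻¹ := by
    calc (x * y) * l * (x * y)⁻¹ * l⁻¹ = x * (y * l * y⁻¹) * x⁻¹ * l⁻¹ := by group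
      _ = _ := by rw [hyl']
  have v2 : (x * y) * m * (x * y)⁻¹ * m⁻¹ = x * (y * m * y⁻¹ * m⁻¹) * x⁻¹ := by
    calc (x * y) * m * (x * y)⁻¹ * m⁻¹ = x * (y * m * y⁻¹) * x⁻¹ * m⁻¹ := by group
      _ = x * (y * m * y⁻¹) * x⁻¹ * (x * m * x⁻¹)⁻¹ := by rw [hxm']
      _ = _ := by group
  have hLxy : Nat.card (lineOf hS.normal hab (x * y)) = p :=
    hS.card_lineOf_of_ne hab (x * y) hlS (by rw [v1]; exact hl1)
  have e1 : lineOf hS.normal hab (x * y) = lineOf hS.normal hab x :=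
    eq_of_card_prime_of_common hp hLxy hLx (a := x * l * x⁻¹ * l⁻¹)
      ((mem_lineOf _ _ _ _).2 ⟨l, hlS, v1⟩) ((mem_lineOf _ _ _ _).2 ⟨l, hlS, rfl⟩) hl1
  have hm2 : x * (y * m * y⁻¹ * m⁻¹) * x⁻¹ ≠ 1 := by
    intro h3
    apply hm1
    have h4 : x * (y * m * y⁻¹ * m⁻¹) = x := by
      calc x * (y * m * y⁻¹ * m⁻¹) = x * (y * m * y⁻¹ * m⁻¹) * x⁻¹ * x := by group
        _ = x := by rw [h3, one_mul]
    simpa using h4
  have hm3 : x * (y * m * y⁻¹ * m⁻¹) * x⁻¹ ∈ lineOf hS.normal hab y :=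
    hS.conj_mem_lineOf hab y x ((mem_lineOf _ _ _ _).2 ⟨m, hmS, rfl⟩)
  have e2 : lineOf hS.normal hab (x * y) = lineOf hS.normal hab y :=
    eq_of_card_prime_of_common hp hLxy hLy (a := x * (y * m * y⁻¹ * m⁻¹) * x⁻¹)
      ((mem_lineOf _ _ _ _).2 ⟨m, hmS, v2⟩) hm3 hm2
  exact hne (e1.symm.trans e2)

/-- The abelian case: a normal line `L` of order at most `p` contains `[X, S]`. -/
theorem Setting.exists_line_of_abelian (hS : Setting (p := p) S) (hab : ∀ x ∈ S, ∀ y ∈ S, x * y = y * x) :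
    ∃ L : Subgroup X, L.Normal ∧ (Nat.card L = 1 ∨ Nat.card L = p) ∧ ∀ x : X, ∀ u ∈ S, x * u * x⁻¹ * u⁻¹ ∈ L := by
  by_cases hall : ∀ x : X, ∀ u ∈ S, x * u * x⁻¹ * u⁻¹ = 1
  · refine ⟨⊥, inferInstance, Or.inl (by simp), fun x u hu => ?_⟩
    rw [hall x u hu]
    exact one_mem _
  · push Not at hall
    obtain ⟨x₀, u₀, hu₀, h0⟩ := hall
    refine ⟨lineOf hS.normal hab x₀, ?_, Or.inr (hS.card_lineOf_of_ne hab x₀ hu₀ h0), ?_⟩
    · constructor
      intro a ha y
      exact hS.conj_mem_lineOf hab x₀ y ha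
    · intro x u hu
      by_cases h1 : x * u * x⁻¹ * u⁻¹ = 1
      · rw [h1]; exact one_mem _
      · rw [hS.lines_eq hab x₀ x hu₀ hu h0 h1]
        exact (mem_lineOf _ _ _ _).2 ⟨u, hu, rfl⟩

end Abelian

section Nonabelian

variable [Finite X] {p : ℕ} [Fact p.Prime] {S : Subgroup X}

/-- Every `p'`-element centralizes a nonabelian `S`. -/
theorem Setting.centralize_of_nonabelian (hS : Setting (p := p) S) (hnonab : ∃ a ∈ S, ∃ b ∈ S, a * b ≠ b * a)
    (y : X) {m : ℕ} (hm : y ^ m = 1) (hmc : m.Coprime p) (v : X) (hv : v ∈ S) : y * v = v * y := by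
  classical
  have hp : p.Prime := Fact.out
  by_contra hyv
  haveI := hS.normal
  have hmemC : ∀ (g : X) (w : S), w ∈ (centralizer ({g} : Set X)).subgroupOf S ↔ (w : X) * g = g * w := by
    intro g w
    rw [Subgroup.mem_subgroupOf, mem_centralizer_singleton_iff]
  set Cy : Subgroup S := (centralizer ({y} : Set X)).subgroupOf S with hCy
  have hidx : ∀ g : X, ((centralizer ({g} : Set X)).subgroupOf S).index = 1 ∨ ((centralizer ({g} : Set X)).subgroupOf S).index = p :=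
    fun g => hS.rel g
  have hCyidx : Cy.index = p := by
    refine (hidx y).resolve_left ?_
    intro h1
    have h2 : Cy = ⊤ := index_eq_one.1 h1
    have h3 : (⟨v, hv⟩ : S) ∈ Cy := by rw [h2]; trivial
    exact hyv ((hmemC y _).1 h3).symm
  -- `Cy` is abelian
  have hCyab : ∀ u ∈ S, ∀ u' ∈ S, u * y = y * u → u' * y = y * u' → u * u' = u' * u := by
    intro u hu u' hu' huy hu'y
    set g := u * y with hg
    set Cg : Subgroup S := (centralizer ({g} : Set X)).subgroupOf S with hCg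
    obtain ⟨f, hf⟩ := hS.pgroup ⟨u, hu⟩
    have hf' : u ^ p ^ f = 1 := congrArg Subtype.val hf
    have hle : Cg ≤ Cy := by
      intro z hz
      have hzg : (z : X) * g = g * z := (hmemC g z).1 hz
      have hc1 : Commute (z : X) g := hzg
      have hc2 : Commute (z : X) (g ^ p ^ f) := hc1.pow_right _
      have hgp : g ^ p ^ f = y ^ p ^ f := by
        rw [hg, (show Commute u y from huy).mul_pow, hf', one_mul]
      rw [hgp] at hc2
      obtain ⟨s, hs⟩ := exists_zpow_pow_eq y hm (n := p ^ f) (Nat.Coprime.pow_left f hmc.symm)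
      have hc3 : Commute (z : X) ((y ^ p ^ f) ^ s) := hc2.zpow_right s
      rw [hs] at hc3
      exact (hmemC y z).2 hc3
    have hCgidx : Cg.index = p := by
      rcases hidx g with h1 | h1
      · have h2 := Subgroup.index_dvd_of_le hle
        rw [hCyidx] at h2
        change p ∣ Cg.index at h2
        rw [hCg, h1] at h2
        exact absurd (Nat.dvd_one.1 h2) hp.one_lt.ne'
      · exact h1
    have hEq : Cg = Cy := eq_of_le_of_index_eq hle (by rw [hCgidx, hCyidx])
    have hu'C : (⟨u', hu'⟩ : S) ∈ Cy := (hmemC y _).2 hu'y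
    rw [← hEq] at hu'C
    have h1 : u' * g = g * u' := (hmemC g _).1 hu'C
    have h2 : u' * (u * y) = u * y * u' := h1
    have h3 : u' * u * y = u * u' * y := by
      calc u' * u * y = u' * (u * y) := by group
        _ = u * y * u' := h2
        _ = u * (y * u') := by group
        _ = u * (u' * y) := by rw [hu'y]
        _ = _ := by group
    exact (mul_right_cancel h3).symm
  -- `Cy` is not central in `S`
  have hCyNormal : Cy.Normal := by
    have hcard : ∃ n, Nat.card S = p ^ n := IsPGroup.iff_card.1 hS.pgroup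
    obtain ⟨n, hn⟩ := hcard
    have hn0 : n ≠ 0 := by
      rintro rfl
      have h2 : Cy.index ∣ Nat.card S := Cy.index_dvd_card
      rw [hn, hCyidx, pow_zero] at h2
      exact hp.one_lt.ne' (Nat.dvd_one.1 h2)
    apply normal_of_index_eq_minFac_card
    rw [hn, hCyidx, Nat.Prime.pow_minFac hp hn0]
  have hex : ∃ u ∈ S, u * y = y * u ∧ ∃ v₁ ∈ S, u * v₁ ≠ v₁ * u := by
    by_contra hcon
    push Not at hcon
    obtain ⟨a, ha, b, hb, hab⟩ := hnonab
    apply hab
    have hcQ : Nat.card (S ⧸ Cy) = p := hCyidx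
    haveI : Fact (Nat.card (S ⧸ Cy)).Prime := ⟨by rw [hcQ]; exact hp⟩
    haveI : IsCyclic (S ⧸ Cy) := isCyclic_of_prime_card rfl
    have h1 := commutative_of_cyclic_center_quotient (QuotientGroup.mk' Cy) (by
      rw [QuotientGroup.ker_mk']
      intro z hz
      rw [mem_center_iff]
      intro w
      apply Subtype.ext
      have h2 := hcon (z : X) z.2 ((hmemC y z).1 hz) (w : X) w.2
      exact h2.symm) (⟨a, ha⟩ : S) ⟨b, hb⟩
    exact congrArg Subtype.val h1
  obtain ⟨u, hu, huy, v₁, hv₁, huv₁⟩ := hex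
  set Cu : Subgroup S := (centralizer ({u} : Set X)).subgroupOf S with hCu
  have hCuidx : Cu.index = p := by
    refine (hidx u).resolve_left ?_
    intro h1
    have h2 : Cu = ⊤ := index_eq_one.1 h1
    have h3 : (⟨v₁, hv₁⟩ : S) ∈ Cu := by rw [h2]; trivial
    exact huv₁ ((hmemC u _).1 h3).symm
  have hCyCu : Cy ≤ Cu := by
    intro z hz
    have h1 := hCyab u hu z z.2 huy ((hmemC y z).1 hz)
    exact (hmemC u z).2 h1.symm
  have hCyEq : Cy = Cu := eq_of_le_of_index_eq hCyCu (by rw [hCyidx, hCuidx])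
  -- the commutator `[u, v]` is fixed by `y`
  have hcomm := comm_mem_of_index hS.pgroup Cy (Or.inr hCyidx) (⟨u, hu⟩ : S) ⟨v, hv⟩
  have hcy : (u * v * u⁻¹ * v⁻¹) * y = y * (u * v * u⁻¹ * v⁻¹) := (hmemC y _).1 hcomm
  set w := v⁻¹ * (y * v * y⁻¹) with hw
  have hwS : w ∈ S := S.mul_mem (S.inv_mem hv) (hS.normal.conj_mem v hv y)
  have hv' : y * v * y⁻¹ = v * w := by rw [hw]; group
  have huy' : y * u * y⁻¹ = u := by rw [← huy]; group
  have h1 : y * (u * v * u⁻¹ * v⁻¹) * y⁻¹ = u * v * u⁻¹ * v⁻¹ := by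
    rw [← hcy]; group
  have h2 : y * (u * v * u⁻¹ * v⁻¹) * y⁻¹ = u * (v * w) * u⁻¹ * (v * w)⁻¹ := by
    rw [← hv']
    calc y * (u * v * u⁻¹ * v⁻¹) * y⁻¹ = (y * u * y⁻¹) * (y * v * y⁻¹) * (y * u * y⁻¹)⁻¹ * (y * v * y⁻¹)⁻¹ := by group
      _ = _ := by rw [huy']
  rw [h1] at h2
  have hwu : w * u⁻¹ * w⁻¹ = u⁻¹ := by
    have h3 : u * v * u⁻¹ * v⁻¹ = u * v * (w * u⁻¹ * w⁻¹) * v⁻¹ := by
      rw [h2]; group
    have h4 : u * v * (u⁻¹) * v⁻¹ * v = u * v * (w * u⁻¹ * w⁻¹) * v⁻¹ * v := by rw [← h3]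
    have h5 : (u * v)⁻¹ * (u * v * u⁻¹ * v⁻¹ * v) = (u * v)⁻¹ * (u * v * (w * u⁻¹ * w⁻¹) * v⁻¹ * v) := by rw [h4]
    have h6 : (u * v)⁻¹ * (u * v * u⁻¹ * v⁻¹ * v) = u⁻¹ := by group
    have h7 : (u * v)⁻¹ * (u * v * (w * u⁻¹ * w⁻¹) * v⁻¹ * v) = w * u⁻¹ * w⁻¹ := by group
    rw [h6, h7] at h5
    exact h5.symm
  have hwCu : (⟨w, hwS⟩ : S) ∈ Cu := by
    rw [hmemC]
    show w * u = u * w
    have h3 : w * u⁻¹ = u⁻¹ * w := by
      calc w * u⁻¹ = (w * u⁻¹ * w⁻¹) * w := by group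
        _ = u⁻¹ * w := by rw [hwu]
    calc w * u = u * (u⁻¹ * w) * u := by group
      _ = u * (w * u⁻¹) * u := by rw [h3]
      _ = u * w := by group
  rw [← hCyEq] at hwCu
  have hwy : w * y = y * w := (hmemC y _).1 hwCu
  have hpow : ∀ n : ℕ, y ^ n * v * (y ^ n)⁻¹ = v * w ^ n := by
    intro n
    induction n with
    | zero => simp
    | succ n ih =>
      have hcw : Commute y (w ^ n) := ((show Commute w y from hwy).pow_left n).symm
      calc y ^ (n + 1) * v * (y ^ (n + 1))⁻¹ = y * (y ^ n * v * (y ^ n)⁻¹) * y⁻¹ := by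
            rw [pow_succ' y n]; group
        _ = y * (v * w ^ n) * y⁻¹ := by rw [ih]
        _ = (y * v * y⁻¹) * (y * w ^ n * y⁻¹) := by group
        _ = (v * w) * (w ^ n * y * y⁻¹) := by rw [hv', hcw.eq]
        _ = _ := by rw [pow_succ' w n]; group
  have h3 := hpow m
  rw [hm] at h3
  simp only [one_mul, inv_one, mul_one] at h3
  have h4 : w ^ m = 1 := by
    have : v * w ^ m = v * 1 := by rw [mul_one]; exact h3.symm
    exact mul_left_cancel this
  obtain ⟨f, hf⟩ := hS.pgroup ⟨w, hwS⟩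
  have hf' : w ^ p ^ f = 1 := congrArg Subtype.val hf
  obtain ⟨s, hs⟩ := exists_zpow_pow_eq w hf' (n := m) (Nat.Coprime.pow_right f hmc)
  rw [h4, one_zpow] at hs
  have hw1 : w = 1 := hs.symm
  apply hyv
  have h5 : y * v * y⁻¹ = v := by rw [hv', hw1, mul_one]
  calc y * v = (y * v * y⁻¹) * y := by group
    _ = v * y := by rw [h5]

/-- The nonabelian case. -/
theorem Setting.exists_line_of_nonabelian (hS : Setting (p := p) S) (hnonab : ∃ a ∈ S, ∃ b ∈ S, a * b ≠ b * a) :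
    ∃ L : Subgroup X, L.Normal ∧ (Nat.card L = 1 ∨ Nat.card L = p) ∧ ∀ x : X, ∀ u ∈ S, x * u * x⁻¹ * u⁻¹ ∈ L := by
  classical
  have hp : p.Prime := Fact.out
  haveI := hS.normal
  have hc : ∀ u : S, (centralizer ({u} : Set S)).index = 1 ∨ (centralizer ({u} : Set S)).index = p := by
    intro u
    have h : centralizer ({u} : Set S) = (centralizer ({(u : X)} : Set X)).subgroupOf S := by
      ext y
      rw [mem_centralizer_singleton_iff, Subgroup.mem_subgroupOf, mem_centralizer_singleton_iff]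
      exact ⟨fun h => congrArg Subtype.val h, fun h => Subtype.ext h⟩
    rw [h]
    exact hS.rel u
  have hK := card_commutator_of_index hS.pgroup hc
  refine ⟨(commutator S).map S.subtype, inferInstance, ?_, ?_⟩
  · have : Nat.card ((commutator S).map S.subtype) = Nat.card (commutator S) :=
      Nat.card_congr (Subgroup.equivMapOfInjective _ _ S.subtype_injective).toEquiv.symm
    rwa [this]
  · intro x u hu
    obtain ⟨k, e, hk, h1, h2⟩ := exists_parts hp x
    -- the two parts of `x`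
    have h3 := Nat.gcd_eq_gcd_ab k (p ^ e)
    rw [(Nat.Coprime.pow_right e hk).gcd_eq_one] at h3
    set A := Nat.gcdA k (p ^ e)
    set B := Nat.gcdB k (p ^ e)
    have hx : x = (x ^ k) ^ A * (x ^ p ^ e) ^ B := by
      have h4 : x ^ (((k : ℤ) * A + ((p ^ e : ℕ) : ℤ) * B)) = x := by
        rw [← h3]; simp
      rw [zpow_add, zpow_mul, zpow_mul, zpow_natCast, zpow_natCast] at h4
      exact h4.symm
    set z := (x ^ k) ^ A with hz
    set y := (x ^ p ^ e) ^ B with hy
    have hzS : z ∈ S := S.zpow_mem (hS.pelt _ e h1) A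
    have hym : y ^ k = 1 := by
      rw [hy, ← zpow_natCast, ← zpow_mul, mul_comm, zpow_mul, zpow_natCast, h2, one_zpow]
    have hyc : ∀ v ∈ S, y * v = v * y := fun v hv => hS.centralize_of_nonabelian hnonab y hym hk v hv
    have hval : x * u * x⁻¹ * u⁻¹ = z * u * z⁻¹ * u⁻¹ := by
      -- `x = z * y`, `y` centralizes `S`
      have hyu : y * u * y⁻¹ = u := by
        rw [hyc u hu]; group
      rw [hx]
      calc z * y * u * (z * y)⁻¹ * u⁻¹ = z * (y * u * y⁻¹) * z⁻¹ * u⁻¹ := by group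
        _ = _ := by rw [hyu]
    rw [hval]
    have h5 : ((⟨z, hzS⟩ : S) * ⟨u, hu⟩ * (⟨z, hzS⟩ : S)⁻¹ * (⟨u, hu⟩ : S)⁻¹) ∈ commutator S :=
      Subgroup.commutator_mem_commutator (mem_top _) (mem_top _)
    exact ⟨_, h5, rfl⟩

end Nonabelian

section Main

variable [Finite X] {p : ℕ} [Fact p.Prime]

/-- **Lemma K**: if `X'` is a `p`-group and `p²` divides no class size of `X`, then `#X' ≤ p`. -/
theorem card_commutator_of_pGroup (hE : ∀ x : X, ¬ p ^ 2 ∣ (centralizer ({x} : Set X)).index)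
    (hX : IsPGroup p (commutator X)) : Nat.card (commutator X) = 1 ∨ Nat.card (commutator X) = p := by
  classical
  have hp : p.Prime := Fact.out
  let P : Sylow p X := default
  have hcomm : commutator X ≤ (P : Subgroup X) := hX.le_sylow_of_normal P
  have hPn : (P : Subgroup X).Normal := by
    constructor
    intro u hu g
    have h1 : g * u * g⁻¹ * u⁻¹ ∈ (P : Subgroup X) := hcomm (Subgroup.commutator_mem_commutator (mem_top g) (mem_top u))
    have h2 := (P : Subgroup X).mul_mem h1 hu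
    simpa using h2
  have hS : Setting (p := p) (P : Subgroup X) := by
    refine ⟨hPn, P.isPGroup', hcomm, ?_, ?_⟩
    · intro z e hz
      have hzp : IsPGroup p (zpowers z) := by
        rintro ⟨x, hx⟩
        obtain ⟨i, rfl⟩ := mem_zpowers_iff.1 hx
        refine ⟨e, Subtype.ext ?_⟩
        show (z ^ i) ^ p ^ e = 1
        rw [← zpow_natCast, ← zpow_mul, mul_comm, zpow_mul, zpow_natCast, hz, one_zpow]
      obtain ⟨Q, hQ⟩ := hzp.exists_le_sylow
      haveI : Unique (Sylow p X) := Sylow.unique_of_normal P hPn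
      have hQP : Q = P := Subsingleton.elim _ _
      rw [← hQP]
      exact hQ (mem_zpowers z)
    · intro x
      obtain ⟨n, hn⟩ := (P.isPGroup').index ((centralizer ({x} : Set X)).subgroupOf (P : Subgroup X))
      have h1 : (centralizer ({x} : Set X)).relIndex (P : Subgroup X) ∣ (centralizer ({x} : Set X)).index := by
        haveI := hPn
        exact relIndex_dvd_index_of_normal' _ _
      have h2 : (centralizer ({x} : Set X)).relIndex (P : Subgroup X) = p ^ n := hn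
      have h3 : n ≤ 1 := by
        by_contra hlt
        apply hE x
        refine dvd_trans ?_ h1
        rw [h2]
        exact pow_dvd_pow p (by omega)
      rw [h2]
      interval_cases n
      · left; simp
      · right; simp
  have hL : ∃ L : Subgroup X, L.Normal ∧ (Nat.card L = 1 ∨ Nat.card L = p) ∧ ∀ x : X, ∀ u ∈ (P : Subgroup X), x * u * x⁻¹ * u⁻¹ ∈ L := by
    by_cases hab : ∀ x ∈ (P : Subgroup X), ∀ y ∈ (P : Subgroup X), x * y = y * x
    · exact hS.exists_line_of_abelian hab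
    · push Not at hab
      exact hS.exists_line_of_nonabelian hab
  obtain ⟨L, hLn, hLc, hLm⟩ := hL
  haveI := hLn
  have hle := commutator_le_of_line hp (P : Subgroup X) L P.isPGroup' hcomm hS.pelt hLm
  have hd := Subgroup.card_dvd_of_le hle
  rcases hLc with h1 | h1
  · left
    rw [h1] at hd
    exact Nat.dvd_one.1 hd
  · rw [h1] at hd
    exact (Nat.dvd_prime hp).1 hd

end Main

end Cfsg.Agent.Lib.SqfClass.LemmaK
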