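/-
Finite groups all of whose class sizes are square-free.
-/
import Mathlib
import Cfsg.Prelude.Def_Solvable
import Cfsg.Prelude.Def_SolvableStructure
import Cfsg.Agent.Lib.SqfClass.LemmaK
import Cfsg.Agent.Lib.SolvStruct.Super
import Cfsg.Agent.Lib.Core.Basic

set_option autoImplicit false
set_option linter.unusedSectionVars false
set_option linter.style.longLine false
set_option linter.style.haveILetI false

namespace Cfsg.Agent.Lib.SqfClass.Main

open Subgroup Cfsg
open Cfsg.Agent.Lib.Solvable.Basic
open Cfsg.Agent.Lib.SqfClass.Basic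
open Cfsg.Agent.Lib.SqfClass.Knoche
open Cfsg.Agent.Lib.SqfClass.LemmaK
open Cfsg.Agent.Lib.SolvStruct.Super
open Cfsg.Agent.Lib.Core.Basic

universe u

/-- Square-free class sizes imply supersolvable. -/
theorem isSupersolvable_of_sqf {G : Type u} [Group G] [Finite G] (h : SqfClasses G) : Cfsg.IsSupersolvable G := by
  induction hn : Nat.card G using Nat.strong_induction_on generalizing G with
  | _ n ih =>
  by_cases h1 : Subsingleton G
  · exact isSupersolvable_of_subsingleton
  haveI : Nontrivial G := not_subsingleton_iff_nontrivial.1 h1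
  haveI := isSolvable_of_sqf h
  obtain ⟨N, hN⟩ := exists_isMinNormal (G := G)
  have hprime := card_prime_of_isMinNormal h hN
  haveI := hN.1
  haveI : Fact (Nat.card N).Prime := ⟨hprime⟩
  haveI : IsCyclic N := isCyclic_of_prime_card rfl
  apply isSupersolvable_of_cyclic_normal N
  refine ih _ ?_ (h.of_surjective (QuotientGroup.mk' N) (QuotientGroup.mk'_surjective N)) rfl
  rw [← hn, ← Subgroup.card_mul_index N]
  have h2 : Nat.card (G ⧸ N) = N.index := rfl
  rw [h2]
  have h3 : 0 < N.index := Nat.pos_of_ne_zero Subgroup.index_ne_zero_of_finite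
  nlinarith [hprime.two_le]

section core

variable {K : Type*} [Group K] [Finite K]

/-- In a nilpotent group the `p'`-core has `p`-power index. -/
theorem index_pPrimeCore_of_nilpotent [Group.IsNilpotent K] (p : ℕ) [hp : Fact p.Prime] :
    ∃ n : ℕ, (pPrimeCore p K).index = p ^ n := by
  have hne : (pPrimeCore p K).index ≠ 0 := Subgroup.index_ne_zero_of_finite
  refine ⟨_, Nat.eq_prime_pow_of_unique_prime_dvd hne ?_⟩
  intro d hd hdvd
  by_contra hne'
  haveI : Fact d.Prime := ⟨hd⟩
  let Q : Sylow d K := default
  have hQn : (Q : Subgroup K).Normal := inferInstance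
  have hQc : (Nat.card Q).Coprime p := by
    obtain ⟨k, hk⟩ := IsPGroup.iff_card.1 Q.isPGroup'
    rw [hk]
    exact Nat.Coprime.pow_left k ((Nat.coprime_primes hd hp.out).2 hne')
  have hle : (Q : Subgroup K) ≤ pPrimeCore p K := le_pPrimeCore hQn hQc
  exact Q.not_dvd_index (hdvd.trans (Subgroup.index_dvd_of_le hle))

end core

variable {G : Type u} [Group G] [Finite G]

/-- `G'` has square-free order. -/
theorem squarefree_card_commutator (h : SqfClasses G) : Squarefree (Nat.card (commutator G)) := by
  classical
  have hS := isSupersolvable_of_sqf h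
  haveI hNil : Group.IsNilpotent (commutator G) := commutator_isNilpotent hS
  rw [Nat.squarefree_iff_prime_squarefree]
  intro p hp hd
  haveI : Fact p.Prime := ⟨hp⟩
  set K := commutator G with hK
  set B : Subgroup K := pPrimeCore p K with hB
  haveI hBc : B.Characteristic := by
    rw [hB]
    infer_instance
  set B' : Subgroup G := B.map K.subtype with hB'
  haveI hB'n : B'.Normal := inferInstance
  let π := QuotientGroup.mk' B'
  have hπs : Function.Surjective π := QuotientGroup.mk'_surjective B'
  let g : K →* (G ⧸ B') := π.comp K.subtype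
  have hrange : g.range = commutator (G ⧸ B') := by
    have hπtop : (⊤ : Subgroup G).map π = ⊤ := Subgroup.map_top_of_surjective _ hπs
    rw [MonoidHom.range_comp, Subgroup.range_subtype, hK, commutator_def, commutator_def, Subgroup.map_commutator, hπtop]
  have hker : g.ker = B := by
    ext x
    rw [MonoidHom.mem_ker]
    show π (x : G) = 1 ↔ x ∈ B
    rw [← MonoidHom.mem_ker, QuotientGroup.ker_mk']
    constructor
    · rintro ⟨y, hy, hxy⟩
      have : y = x := Subtype.ext hxy
      rwa [← this]
    · intro hx
      exact ⟨x, hx, rfl⟩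
  have hcardK : Nat.card K = Nat.card B * Nat.card g.range := by
    have h1 := Subgroup.card_mul_index g.ker
    rw [Subgroup.index_ker, hker] at h1
    exact h1.symm
  have hindex : Nat.card g.range = B.index := by
    rw [← Subgroup.index_ker, hker]
  obtain ⟨n, hn⟩ := index_pPrimeCore_of_nilpotent (K := K) p
  have hpg : IsPGroup p (commutator (G ⧸ B')) := by
    apply IsPGroup.of_card (n := n)
    rw [← hrange, hindex]
    exact hn
  have hE : ∀ x : G ⧸ B', ¬ p ^ 2 ∣ (centralizer ({x} : Set (G ⧸ B'))).index :=
    fun x => (h.of_surjective π hπs).not_sq_dvd hp x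
  have hK2 := card_commutator_of_pGroup hE hpg
  rw [← hrange] at hK2
  have hBcop : (Nat.card B).Coprime p := pPrimeCore_coprime
  rw [hcardK] at hd
  have hpnd : ¬ p ∣ Nat.card B := (Nat.Prime.coprime_iff_not_dvd hp).1 hBcop.symm
  rcases hK2 with h2 | h2
  · rw [h2, mul_one] at hd
    exact hpnd (dvd_trans (Dvd.intro _ rfl) hd)
  · rw [h2] at hd
    exact hpnd (Nat.dvd_of_mul_dvd_mul_right hp.pos hd)

/-- `G'` is cyclic. -/
theorem isCyclic_commutator (h : SqfClasses G) : IsCyclic (commutator G) := by
  haveI hNil : Group.IsNilpotent (commutator G) := commutator_isNilpotent (isSupersolvable_of_sqf h)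
  haveI : IsZGroup (commutator G) := IsZGroup.of_squarefree (squarefree_card_commutator h)
  infer_instance

/-- `G'' = 1`. -/
theorem commutator_commutator_eq_bot (h : SqfClasses G) : commutator ↥(commutator G) = ⊥ := by
  haveI := isCyclic_commutator h
  have hc : ∀ a b : commutator G, a * b = b * a := by
    letI := IsCyclic.commGroup (α := commutator G)
    exact fun a b => mul_comm a b
  rw [eq_bot_iff, commutator_def ↥(commutator G), Subgroup.commutator_le]
  intro a _ b _
  rw [Subgroup.mem_bot]
  exact commutatorElement_eq_one_iff_mul_comm.2 (hc a b)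

/-- The centralizer of `G'` is nilpotent. -/
theorem isNilpotent_centralizer_commutator :
    Group.IsNilpotent (centralizer ((commutator G : Subgroup G) : Set G)) := by
  set C := centralizer ((commutator G : Subgroup G) : Set G) with hC
  apply Subgroup.isNilpotent_of_ker_le_center (Abelianization.of (G := C))
  rw [Abelianization.ker_of, commutator_def, Subgroup.commutator_le]
  intro c₁ _ c₂ _
  rw [mem_center_iff]
  intro z
  apply Subtype.ext
  have h1 : (c₁ : G) * c₂ * (c₁ : G)⁻¹ * (c₂ : G)⁻¹ ∈ commutator G :=
    Subgroup.commutator_mem_commutator (mem_top _) (mem_top _)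
  show (z : G) * ((c₁ : G) * c₂ * (c₁ : G)⁻¹ * (c₂ : G)⁻¹) = ((c₁ : G) * c₂ * (c₁ : G)⁻¹ * (c₂ : G)⁻¹) * z
  exact (mem_centralizer_iff.1 z.2 _ h1).symm

/-- `F(G)` has square-free index. -/
theorem squarefree_index_fitting (h : SqfClasses G) : Squarefree (fittingSubgroup G).index := by
  haveI := isCyclic_commutator h
  obtain ⟨a, ha⟩ := IsCyclic.exists_generator (α := commutator G)
  have hC : centralizer ({(a : G)} : Set G) ≤ fittingSubgroup G := by
    have h1 : centralizer ({(a : G)} : Set G) = centralizer ((commutator G : Subgroup G) : Set G) := by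
      apply le_antisymm
      · intro z hz
        rw [mem_centralizer_iff]
        intro w hw
        obtain ⟨k, hk⟩ := mem_zpowers_iff.1 (ha ⟨w, hw⟩)
        have h2 : w = (a : G) ^ k := (congrArg Subtype.val hk).symm
        have h3 : Commute z (a : G) := mem_centralizer_singleton_iff.1 hz
        rw [h2]
        exact (h3.zpow_right k).symm.eq
      · intro z hz
        rw [mem_centralizer_singleton_iff]
        exact (mem_centralizer_iff.1 hz _ a.2).symm
    rw [h1]
    exact le_fittingSubgroup inferInstance isNilpotent_centralizer_commutator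
  exact (h a).squarefree_of_dvd (Subgroup.index_dvd_of_le hC)

/-- `G/F(G)` is cyclic. -/
theorem isCyclic_quotient_fitting (h : SqfClasses G) : IsCyclic (G ⧸ fittingSubgroup G) := by
  haveI hNil : Group.IsNilpotent (commutator G) := commutator_isNilpotent (isSupersolvable_of_sqf h)
  have hle : commutator G ≤ fittingSubgroup G := le_fittingSubgroup inferInstance hNil
  have hcomm : ∀ a b : G ⧸ fittingSubgroup G, a * b = b * a := by
    intro a b
    obtain ⟨x, rfl⟩ := QuotientGroup.mk'_surjective _ a
    obtain ⟨y, rfl⟩ := QuotientGroup.mk'_surjective _ b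
    have h1 : x * y * x⁻¹ * y⁻¹ ∈ fittingSubgroup G :=
      hle (Subgroup.commutator_mem_commutator (mem_top x) (mem_top y))
    have h2 : QuotientGroup.mk' (fittingSubgroup G) (x * y * x⁻¹ * y⁻¹) = 1 := by
      rw [← MonoidHom.mem_ker, QuotientGroup.ker_mk']
      exact h1
    simp only [map_mul, map_inv] at h2
    set X := QuotientGroup.mk' (fittingSubgroup G) x
    set Y := QuotientGroup.mk' (fittingSubgroup G) y
    calc X * Y = (X * Y * X⁻¹ * Y⁻¹) * (Y * X) := by group
      _ = Y * X := by rw [h2, one_mul]
  haveI : IsZGroup (G ⧸ fittingSubgroup G) := IsZGroup.of_squarefree (squarefree_index_fitting h)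
  letI : CommGroup (G ⧸ fittingSubgroup G) := { (inferInstance : Group (G ⧸ fittingSubgroup G)) with mul_comm := hcomm }
  infer_instance

/-- `F(G)` has class at most two. -/
theorem upperCentralSeries_two_fitting (h : SqfClasses G) :
    Subgroup.upperCentralSeries ↥(fittingSubgroup G) 2 = ⊤ := by
  classical
  set F := fittingSubgroup G with hF
  haveI hFn : F.Normal := fittingSubgroup_normal'
  haveI hFnil : Group.IsNilpotent F := fittingSubgroup_isNilpotent
  have hsqF : SqfClasses F := h.normal F
  have hn : ∀ {p : ℕ} [Fact p.Prime] (P : Sylow p F), (P : Subgroup F).Normal := fun P => inferInstance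
  let e := Sylow.directProductOfNormal hn
  have hcomp : ∀ (p : ℕ) [Fact p.Prime] (P : Sylow p F) (a b u : (P : Subgroup F)),
      (a * b * a⁻¹ * b⁻¹) * u = u * (a * b * a⁻¹ * b⁻¹) := by
    intro p _ P a b u
    have hp : p.Prime := Fact.out
    have hsqP : SqfClasses (P : Subgroup F) := hsqF.normal _
    refine comm_central P.isPGroup' ?_ a b u
    intro w
    obtain ⟨n, hn⟩ := P.isPGroup'.index (centralizer ({w} : Set (P : Subgroup F)))
    have h1 := hsqP.not_sq_dvd hp w
    rw [hn] at h1 ⊢
    have h2 : n ≤ 1 := by
      by_contra hlt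
      exact h1 (pow_dvd_pow p (by omega))
    interval_cases n
    · left; simp
    · right; simp
  have hprod : ∀ a b u : (∀ p : (Nat.card F).primeFactors, ∀ P : Sylow p F, (P : Subgroup F)),
      (a * b * a⁻¹ * b⁻¹) * u = u * (a * b * a⁻¹ * b⁻¹) := by
    intro a b u
    funext p P
    haveI : Fact (p : ℕ).Prime := ⟨Nat.prime_of_mem_primeFactors p.2⟩
    exact hcomp p P (a p P) (b p P) (u p P)
  have hcen : ∀ a b u : F, (a * b * a⁻¹ * b⁻¹) * u = u * (a * b * a⁻¹ * b⁻¹) := by
    intro a b u
    have h1 := hprod (e.symm a) (e.symm b) (e.symm u)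
    have h2 := congrArg e h1
    simpa using h2
  rw [eq_top_iff]
  intro x _
  rw [Subgroup.mem_upperCentralSeries_succ_iff]
  intro y
  rw [Subgroup.mem_upperCentralSeries_succ_iff]
  intro z
  rw [Subgroup.upperCentralSeries_zero, Subgroup.mem_bot]
  exact commutatorElement_eq_one_iff_mul_comm.2 (hcen x y z)

/-- The main theorem. -/
theorem main (h : SqfClasses G) :
    Cfsg.IsSupersolvable G ∧ (Cfsg.fittingSubgroup G).Normal ∧
    (∀ _h : (Cfsg.fittingSubgroup G).Normal, IsCyclic (G ⧸ Cfsg.fittingSubgroup G) ∧ Squarefree (Cfsg.fittingSubgroup G).index) ∧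
    IsCyclic (commutator G) ∧ Squarefree (Nat.card (commutator G)) ∧
    Subgroup.upperCentralSeries ↥(Cfsg.fittingSubgroup G) 2 = ⊤ ∧ commutator ↥(commutator G) = ⊥ :=
  ⟨isSupersolvable_of_sqf h, fittingSubgroup_normal', fun _ => ⟨isCyclic_quotient_fitting h, squarefree_index_fitting h⟩,
    isCyclic_commutator h, squarefree_card_commutator h, upperCentralSeries_two_fitting h, commutator_commutator_eq_bot h⟩

end Cfsg.Agent.Lib.SqfClass.Main
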